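import Cfsg.Agent.H50.RG.LStmts
import Cfsg.Agent.LieClassical.OrthFinite

/-!
# S5714, RG-L08 (helper755): totally isotropic subspaces

`l08 : L08`.
-/

set_option autoImplicit false

namespace Cfsg.Agent.H755.RG.Sing

open Module Cfsg.Agent.H847.Bs Cfsg.Agent.H50.RG
open Cfsg.Agent.H440.Bs (perp mem_perp mem_perp' finrank_perp B_zero_left B_zero_right B_comm_zero two_mul_finrank_le)

/-- norms of the field with `r²` elements -/
theorem exists_norm {F : Type*} [Field F] [Finite F] {r : ℕ} (hr : Nat.card F = r ^ 2) {c : F} (hc : c ^ r = c) :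
    ∃ a : F, a ^ (r + 1) = c := by
  by_cases hc0 : c = 0
  · exact ⟨0, by rw [hc0, zero_pow (by omega)]⟩
  have h1 : 1 < Nat.card F := Finite.one_lt_card
  have hr2 : 2 ≤ r := by
    rcases Nat.lt_or_ge r 2 with h | h
    · interval_cases r <;> omega
    · exact h
  obtain ⟨g, hg⟩ := IsCyclic.exists_generator (α := Fˣ)
  obtain ⟨k, hk⟩ := (mem_powers_iff_mem_zpowers.2 (hg (Units.mk0 c hc0)) : Units.mk0 c hc0 ∈ Submonoid.powers g)
  have hk' : g ^ k = Units.mk0 c hc0 := hk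
  have hord : orderOf g = (r - 1) * (r + 1) := by
    rw [orderOf_eq_card_of_forall_mem_zpowers hg, Nat.card_units, hr]
    obtain ⟨s, rfl⟩ : ∃ s, r = s + 1 := ⟨r - 1, by omega⟩
    rw [Nat.add_sub_cancel]
    have : (s + 1) ^ 2 = s * (s + 1 + 1) + 1 := by ring
    omega
  have h2 : g ^ (k * (r - 1)) = 1 := by
    rw [pow_mul, hk']
    apply Units.ext
    rw [Units.val_pow_eq_pow_val, Units.val_mk0, Units.val_one]
    have h3 : c ^ (r - 1) * c = 1 * c := by
      rw [← pow_succ, Nat.sub_add_cancel (by omega), hc, one_mul]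
    exact mul_right_cancel₀ hc0 h3
  have h3 := orderOf_dvd_of_pow_eq_one h2
  rw [hord, mul_comm k] at h3
  obtain ⟨l, hl⟩ := Nat.dvd_of_mul_dvd_mul_left (by omega) h3
  refine ⟨((g ^ l : Fˣ) : F), ?_⟩
  rw [← Units.val_pow_eq_pow_val, ← pow_mul, mul_comm, ← hl, hk', Units.val_mk0]

variable {F V : Type*} [Field F] [Finite F] [AddCommGroup V] [Module F V]

/-- the three kinds of spaces -/
def Kind (Φ : Frm F V) : Prop :=
  IsSp Φ ∨ (∃ r, IsHerm r Φ) ∨ (∃ Q : QuadraticForm F V, (frmQ Q).Nd ∧ Φ = frmQ Q)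

omit [Finite F] in
theorem Kind.nd {Φ : Frm F V} (h : Kind Φ) : Φ.Nd := by
  rcases h with h | ⟨r, h⟩ | ⟨Q, h, rfl⟩
  · exact h.nd
  · exact h.nd
  · exact h

/-- hermitian spaces: isotropic vectors -/
theorem herm_mem {r : ℕ} {Φ : Frm F V} (h : IsHerm r Φ) (W : Submodule F V) (hW : 2 ≤ finrank F W) :
    ∃ w ∈ W, w ≠ 0 ∧ Φ.B w w = 0 := by
  have : Module.Finite F W := Module.finite_of_finrank_pos (by omega)
  let bs := Module.finBasis F W
  let v : Fin 2 → W := fun i => bs (Fin.castLE hW i)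
  have hv : LinearIndependent F v := bs.linearIndependent.comp _ (Fin.castLE_injective hW)
  by_cases hx : Φ.B (v 0) (v 0) = 0
  · exact ⟨v 0, (v 0).2, fun h0 => hv.ne_zero 0 (Subtype.ext h0), hx⟩
  -- the component of `v 1` orthogonal to `v 0`
  set a : F := Φ.B (v 1) (v 0) / Φ.B (v 0) (v 0) with ha
  set z : V := (v 1 : V) - a • (v 0 : V) with hz
  have hzW : z ∈ W := W.sub_mem (v 1).2 (W.smul_mem _ (v 0).2)
  have hli : ∀ b c : F, b • (v 0 : V) + c • (v 1 : V) = 0 → b = 0 ∧ c = 0 := by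
    intro b c hbc
    have h1 := Fintype.linearIndependent_iff.1 hv ![b, c] (by
      rw [Fin.sum_univ_two]
      exact Subtype.ext hbc)
    exact ⟨h1 0, h1 1⟩
  have hzo : Φ.B z (v 0) = 0 := by
    have h1 : Φ.B z (v 0) = Φ.B (v 1) (v 0) - a * Φ.B (v 0) (v 0) := by
      rw [hz, sub_eq_add_neg, Φ.add_left, ← neg_smul, Φ.smul_left, neg_mul, ← sub_eq_add_neg]
    rw [h1, ha, div_mul_cancel₀ _ hx, sub_self]
  have hzo' : Φ.B (v 0) z = 0 := Φ.refl _ _ hzo
  have hfix : ∀ x, Φ.B x x ^ r = Φ.B x x := fun x => (h.symm x x).symm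
  have hr0 : r ≠ 0 := by
    rintro rfl
    have h1 := h.card
    have h2 : 1 < Nat.card F := Finite.one_lt_card
    omega
  set c : F := -(Φ.B z z / Φ.B (v 0) (v 0)) with hc
  have hcr : c ^ r = c := by
    have hneg : (-1 : F) ^ r = -1 := by
      have h1 : Φ.s (-1) = (-1) ^ r := h.s _
      have h2 : Φ.s (-1) = -1 := by
        have h3 := Φ.smul_right (-1) (v 0 : V) (v 0)
        have h4 : Φ.B (v 0) (v 0 : V) + Φ.B (v 0) ((-1 : F) • (v 0 : V)) = 0 := by
          rw [← Φ.add_right, neg_one_smul, add_neg_cancel]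
          exact B_zero_right Φ _
        rw [h3] at h4
        have h5 : (1 + Φ.s (-1)) * Φ.B (v 0) (v 0 : V) = 0 := by linear_combination h4
        have h6 := (mul_eq_zero.1 h5).resolve_right hx
        linear_combination h6
      rw [← h1, h2]
    rw [hc, neg_pow, hneg, div_pow, hfix, hfix]
    ring
  obtain ⟨b, hb⟩ := exists_norm h.card hcr
  refine ⟨b • (v 0 : V) + z, W.add_mem (W.smul_mem _ (v 0).2) hzW, ?_, ?_⟩
  · intro h0
    have h1 : (b - a) • (v 0 : V) + (1 : F) • (v 1 : V) = 0 := by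
      rw [← h0, hz, sub_smul, one_smul]
      abel
    exact one_ne_zero (hli _ _ h1).2
  · rw [Φ.add_left, Φ.add_right, Φ.add_right, Φ.smul_left, Φ.smul_left, Φ.smul_right, Φ.smul_right, hzo, hzo', h.s]
    have h1 : b * (b ^ r * Φ.B (v 0 : V) (v 0)) = c * Φ.B (v 0 : V) (v 0) := by rw [← hb]; ring
    rw [h1, hc, mul_zero, mul_zero, add_zero, zero_add, neg_mul, div_mul_cancel₀ _ hx]
    ring

/-- a subspace of dimension three contains a nonzero singular vector -/
theorem sing_mem {Φ : Frm F V} (h : Kind Φ) (W : Submodule F V) (hW : 3 ≤ finrank F W) :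
    ∃ w ∈ W, w ≠ 0 ∧ Φ.B w w = 0 ∧ ∀ c : F, Φ.q (c • w) = 0 := by
  rcases h with h | ⟨r, h⟩ | ⟨Q, h, rfl⟩
  · have : Nontrivial W := Module.nontrivial_of_finrank_pos (R := F) (by omega)
    obtain ⟨w, hw⟩ := exists_ne (0 : W)
    exact ⟨w, w.2, fun h0 => hw (Subtype.ext h0), h.alt _, fun c => h.q _⟩
  · obtain ⟨w, hw, hw0, hww⟩ := herm_mem h W (by omega)
    exact ⟨w, hw, hw0, hww, fun c => h.q _⟩
  · obtain ⟨w, hw, hw0, hww⟩ := Cfsg.Agent.LieClassical.OrthFinite.exists_sing_mem (Q := Q) W hW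
    refine ⟨w, hw, hw0, ?_, fun c => ?_⟩
    · show QuadraticMap.polar Q w w = 0
      rw [QuadraticMap.polar_self, hww, smul_zero]
    · show Q (c • w) = 0
      rw [QuadraticMap.map_smul, hww, smul_zero]

/-- totally isotropic subspaces of every dimension -/
theorem exists_ti [Module.Finite F V] {Φ : Frm F V} (h : Kind Φ) : ∀ k, 2 * k + 2 ≤ finrank F V →
    ∃ A : Submodule F V, Φ.TI A ∧ finrank F A = k
  | 0, _ => by
    refine ⟨⊥, ⟨?_, ?_⟩, finrank_bot F V⟩
    · intro x hx y _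
      rw [(Submodule.mem_bot F).1 hx]
      exact B_zero_left Φ y
    · intro x hx
      rw [(Submodule.mem_bot F).1 hx]
      exact Cfsg.Agent.H440.Bs.q_zero Φ
  | k + 1, hk => by
    obtain ⟨A, hA, hAk⟩ := exists_ti h k (by omega)
    obtain ⟨A', hA'⟩ := A.exists_isCompl
    have h1 := finrank_perp Φ h.nd A
    have h2 := Submodule.finrank_add_eq_of_isCompl hA'
    have h3 := Submodule.finrank_sup_add_finrank_inf_eq A' (perp Φ A)
    have h4 : finrank F ↥(A' ⊔ perp Φ A) ≤ finrank F V := Submodule.finrank_le _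
    obtain ⟨w, hw, hw0, hww, hq⟩ := sing_mem h (A' ⊓ perp Φ A) (by omega)
    have hwA : w ∉ A := by
      intro hw1
      have : w ∈ A ⊓ A' := ⟨hw1, hw.1⟩
      rw [hA'.inf_eq_bot] at this
      exact hw0 ((Submodule.mem_bot F).1 this)
    have hwp : ∀ x ∈ A, Φ.B w x = 0 := hw.2
    have hwp' : ∀ x ∈ A, Φ.B x w = 0 := fun x hx => Φ.refl _ _ (hwp x hx)
    refine ⟨A ⊔ Submodule.span F {w}, ⟨?_, ?_⟩, ?_⟩
    · intro x hx y hy
      obtain ⟨a, ha, x', hx', rfl⟩ := Submodule.mem_sup.1 hx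
      obtain ⟨b, hb, y', hy', rfl⟩ := Submodule.mem_sup.1 hy
      obtain ⟨c, rfl⟩ := Submodule.mem_span_singleton.1 hx'
      obtain ⟨d, rfl⟩ := Submodule.mem_span_singleton.1 hy'
      rw [Φ.add_left, Φ.add_right, Φ.add_right, Φ.smul_left, Φ.smul_left, Φ.smul_right, Φ.smul_right, hA.1 a ha b hb,
        hwp b hb, hwp' a ha, hww]
      ring
    · intro x hx
      obtain ⟨a, ha, x', hx', rfl⟩ := Submodule.mem_sup.1 hx
      obtain ⟨c, rfl⟩ := Submodule.mem_span_singleton.1 hx'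
      rw [Φ.q_add, hA.2 a ha, hq, add_zero]
      rw [Φ.smul_right, hwp' a ha, mul_zero]
    · have h5 := Submodule.finrank_sup_add_finrank_inf_eq A (Submodule.span F {w})
      have h6 : A ⊓ Submodule.span F {w} = ⊥ := by
        rw [Submodule.eq_bot_iff]
        rintro x ⟨hx, hx'⟩
        obtain ⟨c, rfl⟩ := Submodule.mem_span_singleton.1 hx'
        by_cases hc : c = 0
        · rw [hc, zero_smul]
        · exfalso
          apply hwA
          have := A.smul_mem c⁻¹ hx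
          rwa [smul_smul, inv_mul_cancel₀ hc, one_smul] at this
      rw [h6, finrank_bot, finrank_span_singleton hw0, hAk] at h5
      exact h5

/-- **RG-L08** -/
theorem l08 : L08 := by
  intro F V _ _ _ _ _ Φ h
  have h' : Kind Φ := h
  exact ⟨fun k hk => exists_ti h' k hk, fun A hA => two_mul_finrank_le Φ h'.nd hA.1⟩

end Cfsg.Agent.H755.RG.Sing
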